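import Mathlib
import Cfsg.Agent.Lib.Helper58.SpecProd.Defs

set_option autoImplicit false

namespace Cfsg.Agent.Lib.Helper27.SpecProd

open Cfsg.Agent.Lib.Helper58.SpecProd

universe u

/-- (DI) from (DEC), (SOP), (PRIM): the dichotomy for `PSL_n(q)`. -/
theorem pkgDI_of (hDec : PkgDec.{u}) (hSOP : PkgSplitOrPow.{u}) (hPrim : PkgPrim.{u}) :
    PkgDI.{u} := by
  intro F _ _ p a n r hp hq hn hr hrq hrn x hrx
  obtain ⟨A, rfl⟩ := QuotientGroup.mk_surjective x
  have hmonic : (A : Matrix (Fin n) (Fin n) F).charpoly.Monic := Matrix.charpoly_monic _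
  have hdeg : (A : Matrix (Fin n) (Fin n) F).charpoly.natDegree = n := by
    rw [Matrix.charpoly_natDegree_eq_dim, Fintype.card_fin]
  rcases hSOP _ hmonic (by omega) with ⟨χ₁, χ₂, hχ, hcop, h1, h2⟩ | ⟨f, e, hf, hfm, he, hχ⟩
  · left
    obtain ⟨z, hcomm, hzr, hzc⟩ := hDec n r hr hrq hrn A χ₁ χ₂ hχ hcop h1 h2
    have hzz1 : (QuotientGroup.mk z : Matrix.ProjectiveSpecialLinearGroup (Fin n) F) ≠ 1 := by
      intro h
      exact hzc ((QuotientGroup.eq_one_iff z).mp h)
    have hzzr : (QuotientGroup.mk z : Matrix.ProjectiveSpecialLinearGroup (Fin n) F) ^ r = 1 := by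
      rw [← QuotientGroup.mk_pow, hzr]
      rfl
    have hord : orderOf (QuotientGroup.mk z : Matrix.ProjectiveSpecialLinearGroup (Fin n) F)
        = r := by
      have := orderOf_dvd_of_pow_eq_one hzzr
      rcases (Nat.dvd_prime hr).mp this with h | h
      · exact absurd (orderOf_eq_one_iff.mp h) hzz1
      · exact h
    have hc : Commute (QuotientGroup.mk A : Matrix.ProjectiveSpecialLinearGroup (Fin n) F)
        (QuotientGroup.mk z) := by
      show _ * _ = _ * _
      rw [← QuotientGroup.mk_mul, ← QuotientGroup.mk_mul, hcomm.eq]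
    refine ⟨(QuotientGroup.mk A : Matrix.ProjectiveSpecialLinearGroup (Fin n) F)
      * QuotientGroup.mk z, ?_⟩
    have hcop' : Nat.Coprime
        (orderOf (QuotientGroup.mk A : Matrix.ProjectiveSpecialLinearGroup (Fin n) F))
        (orderOf (QuotientGroup.mk z : Matrix.ProjectiveSpecialLinearGroup (Fin n) F)) := by
      rw [hord]
      exact (Nat.Coprime.symm ((Nat.Prime.coprime_iff_not_dvd hr).mpr hrx))
    rw [hc.orderOf_mul_eq_mul_orderOf_of_coprime hcop', hord]
  · right
    obtain ⟨T, hT⟩ := hPrim p a n hp hq hn A f e hf hfm he hχ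
    exact ⟨T, orderOf_dvd_of_pow_eq_one hT⟩

end Cfsg.Agent.Lib.Helper27.SpecProd
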