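import Mathlib
import Cfsg.Agent.Lib.Helper58.SpecProd.Defs

set_option autoImplicit false

namespace Cfsg.Agent.Lib.Helper27.SpecProd

open Cfsg.Agent.Lib.Helper58.SpecProd

universe u

/-- A prime power dividing the order of an element of a finite power of a finite group divides
the order of one of its components. -/
theorem exists_prime_pow_dvd_orderOf_apply {L : Type u} [Group L] [Finite L] {k : ℕ}
    (x : Fin k → L) (s e : ℕ) (hs : s.Prime) (he : 1 ≤ e) (hse : s ^ e ∣ orderOf x) :
    ∃ i, s ^ e ∣ orderOf (x i) := by
  by_contra hcon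
  push Not at hcon
  have hN0 : orderOf x ≠ 0 := (orderOf_pos x).ne'
  have hsN : s ∣ orderOf x := dvd_trans (dvd_pow_self s (by omega)) hse
  obtain ⟨N', hN'⟩ := hsN
  have hN'0 : N' ≠ 0 := by
    rintro rfl
    exact hN0 (by rw [hN']; simp)
  have hall : ∀ i, orderOf (x i) ∣ N' := by
    intro i
    have hoi0 : orderOf (x i) ≠ 0 := (orderOf_pos (x i)).ne'
    have hoiN : orderOf (x i) ∣ orderOf x := by
      apply orderOf_dvd_of_pow_eq_one
      have := congrFun (pow_orderOf_eq_one x) i
      simpa using this
    have hlt : (orderOf (x i)).factorization s < e := by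
      by_contra hge
      push Not at hge
      exact hcon i ((hs.pow_dvd_iff_le_factorization hoi0).mpr hge)
    have hge : e ≤ (orderOf x).factorization s := (hs.pow_dvd_iff_le_factorization hN0).mp hse
    have hfac : (orderOf x).factorization = Finsupp.single s 1 + N'.factorization := by
      rw [hN', Nat.factorization_mul hs.ne_zero hN'0, hs.factorization]
    rw [← Nat.factorization_le_iff_dvd hoi0 hN'0]
    intro q
    have h1 : (orderOf (x i)).factorization q ≤ (orderOf x).factorization q :=
      (Nat.factorization_le_iff_dvd hoi0 hN0).mpr hoiN q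
    rw [hfac] at h1 hge
    simp only [Finsupp.coe_add, Pi.add_apply, Finsupp.single_apply] at h1 hge
    by_cases hq : s = q
    · subst hq
      simp only [if_true] at h1 hge
      omega
    · simp only [if_neg hq] at h1
      omega
  have hx1 : x ^ N' = 1 := by
    funext i
    simp only [Pi.pow_apply, Pi.one_apply]
    exact orderOf_dvd_iff_pow_eq_one.mp (hall i)
  have hdvd : orderOf x ∣ N' := orderOf_dvd_of_pow_eq_one hx1
  have hle : orderOf x ≤ N' := Nat.le_of_dvd (Nat.pos_of_ne_zero hN'0) hdvd
  have h2 : 2 * N' ≤ s * N' := Nat.mul_le_mul_right _ hs.two_le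
  have hN'pos : 0 < N' := Nat.pos_of_ne_zero hN'0
  omega

/-- (P2) powers of a group whose odd prime-power element orders divide some `2 ^ d - 1`, `d ≤ n`,
and which has elements of all orders `2 ^ d - 1`, `d ≤ n`. -/
theorem pkgPow2Arith : PkgPow2Arith.{u} := by
  classical
  intro L _ _ n hn h1 h2 k hk
  ext N
  constructor
  · rintro ⟨x, rfl⟩
    have hN0 : orderOf x ≠ 0 := (orderOf_pos x).ne'
    obtain ⟨τ, M, hM, hNM⟩ := Nat.exists_eq_two_pow_mul_odd hN0
    -- slot 0
    have hy0 : ∃ y0 : L, orderOf y0 = 2 ^ τ := by
      rcases Nat.eq_zero_or_pos τ with h0 | hpos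
      · exact ⟨1, by rw [h0]; simp⟩
      · obtain ⟨i, hi⟩ := exists_prime_pow_dvd_orderOf_apply x 2 τ Nat.prime_two hpos
          (by rw [hNM]; exact Dvd.intro _ rfl)
        exact ⟨x i ^ (orderOf (x i) / 2 ^ τ),
          orderOf_pow_orderOf_div (orderOf_pos (x i)).ne' hi⟩
    obtain ⟨y0, hy0⟩ := hy0
    -- the other slots
    have hz : ∀ j : ℕ, ∃ z : L, 2 * j < n → orderOf z = Nat.gcd M (2 ^ (n - j) - 1) := by
      intro j
      by_cases hj : 2 * j < n
      · obtain ⟨g, hg⟩ := h2 (n - j) (by omega) (by omega)
        have hg0 : orderOf g ≠ 0 := (orderOf_pos g).ne'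
        refine ⟨g ^ (orderOf g / Nat.gcd M (2 ^ (n - j) - 1)), fun _ => ?_⟩
        exact orderOf_pow_orderOf_div hg0 (by rw [hg]; exact Nat.gcd_dvd_right _ _)
      · exact ⟨1, fun h => absurd h hj⟩
    choose z hz using hz
    let y : Fin ((n + 3) / 2) → L := fun i => if i.val = 0 then y0 else z (i.val - 1)
    have hkey : ∀ m : ℕ, y ^ m = 1 ↔ orderOf x ∣ m := by
      intro m
      constructor
      · intro hym
        have hcomp : ∀ i, orderOf (y i) ∣ m := by
          intro i
          apply orderOf_dvd_of_pow_eq_one
          have := congrFun hym i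
          simpa using this
        have h2m : 2 ^ τ ∣ m := by
          have := hcomp ⟨0, by omega⟩
          simpa [y, hy0] using this
        have hMm : M ∣ m := by
          rw [Nat.dvd_iff_prime_pow_dvd_dvd]
          intro s e hs hse
          rcases Nat.eq_zero_or_pos e with he0 | hepos
          · rw [he0]; simp
          · by_cases hs2 : s = 2
            · exfalso
              subst hs2
              have : 2 ∣ M := dvd_trans (dvd_pow_self 2 (by omega)) hse
              exact (Nat.not_even_iff_odd.mpr hM) (even_iff_two_dvd.mpr this)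
            · obtain ⟨i, hi⟩ := exists_prime_pow_dvd_orderOf_apply x s e hs hepos
                (by rw [hNM]; exact Dvd.dvd.mul_left hse _)
              obtain ⟨d, hd1, hdn, hd⟩ := h1 (x i) s e hs hs2 hi
              have hdpos : 0 < d := by omega
              have hmodlt : n % d < d := Nat.mod_lt _ hdpos
              have hdm : d * (n / d) + n % d = n := Nat.div_add_mod n d
              have hdle : d ≤ d * (n / d) := Nat.le_mul_of_pos_right _ (Nat.div_pos hdn hdpos)
              have hj : 2 * (n % d) < n := by omega
              have hsub : n - n % d = d * (n / d) := by omega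
              have hdvd2 : 2 ^ d - 1 ∣ 2 ^ (n - n % d) - 1 := by
                rw [hsub]
                simpa only [one_pow, pow_mul] using Nat.sub_dvd_pow_sub_pow (2 ^ d) 1 (n / d)
              have hzo := hz (n % d) hj
              have hyi : y ⟨n % d + 1, by omega⟩ = z (n % d) := by
                simp [y]
              have := hcomp ⟨n % d + 1, by omega⟩
              rw [hyi, hzo] at this
              exact dvd_trans (Nat.dvd_gcd hse (dvd_trans hd hdvd2)) this
        rw [hNM]
        exact Nat.Coprime.mul_dvd_of_dvd_of_dvd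
          (Nat.Coprime.pow_left τ (Nat.coprime_two_left.mpr hM)) h2m hMm
      · intro hNm
        funext i
        simp only [Pi.pow_apply, Pi.one_apply]
        apply orderOf_dvd_iff_pow_eq_one.mp
        refine dvd_trans ?_ hNm
        rw [hNM]
        by_cases hi : i.val = 0
        · have : y i = y0 := by simp [y, hi]
          rw [this, hy0]
          exact Dvd.intro _ rfl
        · have : y i = z (i.val - 1) := by simp [y, hi]
          have hi2 := i.2
          rw [this, hz (i.val - 1) (by omega)]
          exact Dvd.dvd.mul_left (Nat.gcd_dvd_left _ _) _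
    refine ⟨y, ?_⟩
    apply Nat.dvd_antisymm
    · exact orderOf_dvd_of_pow_eq_one ((hkey _).mpr dvd_rfl)
    · exact (hkey _).mp (pow_orderOf_eq_one y)
  · rintro ⟨x, rfl⟩
    refine ⟨fun i => if h : i.val < (n + 3) / 2 then x ⟨i.val, h⟩ else 1, ?_⟩
    rw [orderOf_eq_orderOf_iff]
    intro m
    constructor
    · intro hm
      funext i
      have := congrFun hm ⟨i.val, lt_of_lt_of_le i.2 hk⟩
      simpa using this
    · intro hm
      funext i
      simp only [Pi.pow_apply, Pi.one_apply]
      by_cases h : i.val < (n + 3) / 2
      · simp only [dif_pos h]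
        have := congrFun hm ⟨i.val, h⟩
        simpa using this
      · simp only [dif_neg h, one_pow]

end Cfsg.Agent.Lib.Helper27.SpecProd
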