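import Mathlib
import Cfsg.Agent.Lib.Helper58.SpecProd.Defs

set_option autoImplicit false

namespace Cfsg.Agent.Lib.Helper27.SpecProd

open Cfsg.Agent.Lib.Helper58.SpecProd

universe u

/-- (U) from (UB) and (UE): if `n - 1` is not a power of `p`, every `p`-element order times `r`
is an element order of `PSL_n(q)`. -/
theorem pkgU_of (hUB : PkgUBound.{u}) (hUE : PkgUEx.{u}) : PkgU.{u} := by
  intro F _ _ p a n r hp hq hn hr hrq hrn hnp x hx
  obtain ⟨t, ht⟩ := hx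
  obtain ⟨T₀, w, hnT, hw⟩ := hUE p a n r hp hq hn hr hrq hrn hnp
  have htT : t ≤ T₀ := hUB p a n hp hq hn x t T₀ ht hnT
  refine ⟨w ^ (p ^ (T₀ - t)), ?_⟩
  have hp0 : p ^ (T₀ - t) ≠ 0 := pow_ne_zero _ hp.ne_zero
  have hdvd : p ^ (T₀ - t) ∣ orderOf w := by
    rw [hw]
    exact Dvd.dvd.mul_right (pow_dvd_pow p (Nat.sub_le _ _)) r
  rw [orderOf_pow_of_dvd hp0 hdvd, hw, ht]
  have h1 : p ^ T₀ * r = p ^ t * r * p ^ (T₀ - t) := by
    have : p ^ T₀ = p ^ t * p ^ (T₀ - t) := by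
      rw [← pow_add]
      congr 1
      omega
    rw [this]
    ring
  rw [h1]
  exact Nat.mul_div_cancel _ (Nat.pos_of_ne_zero hp0)

end Cfsg.Agent.Lib.Helper27.SpecProd
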